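import Mathlib
import Cfsg.Agent.Lib.Helper74.SymAlgDefs

/-!
# Symmetric algebras, piece P3 (helper96, for S4607)

If `A` is a symmetric algebra with `A / J ≃ Mat_n(F)` and at most two independent trace
forms, then `J ^ 2 = 0`.
-/

set_option autoImplicit false

namespace Cfsg.Agent.Lib.Helper96.SymAlgP3

open Cfsg.Agent.Lib.Helper74.SymAlg Module

variable {F A : Type*} [Field F] [Ring A] [Algebra F A]

/-- Morita transfer of trace forms from `eps A eps` to `A`, for a full idempotent `eps`. -/
theorem morita_trace {ι : Type*} [Fintype ι] (eps : A) (heps : eps * eps = eps) (u v : ι → A)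
    (h1 : ∑ j, v j * eps * u j = 1) (g : A →ₗ[F] F)
    (hg : ∀ X Y, g ((eps * X * eps) * (eps * Y * eps)) = g ((eps * Y * eps) * (eps * X * eps))) :
    ∃ s : A →ₗ[F] F, (∀ a b, s (a * b) = s (b * a)) ∧
      (∀ x, s (eps * x * eps) = g (eps * x * eps)) ∧
      (∀ a, s a = ∑ j, g (eps * u j * a * (v j * eps))) := by
  classical
  let s : A →ₗ[F] F :=
    ∑ j, g ∘ₗ (LinearMap.mulLeft F (eps * u j)) ∘ₗ (LinearMap.mulRight F (v j * eps))
  have hs : ∀ a, s a = ∑ j, g (eps * u j * a * (v j * eps)) := by
    intro a
    simp only [s, LinearMap.sum_apply, LinearMap.comp_apply, LinearMap.mulLeft_apply,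
      LinearMap.mulRight_apply, mul_assoc]
  have key : ∀ a b j, eps * u j * (a * b) * (v j * eps)
      = ∑ k, (eps * (u j * a * v k) * eps) * (eps * (u k * b * v j) * eps) := by
    intro a b j
    calc eps * u j * (a * b) * (v j * eps)
        = eps * u j * a * 1 * (b * (v j * eps)) := by simp only [mul_assoc, mul_one]
      _ = eps * u j * a * (∑ k, v k * eps * u k) * (b * (v j * eps)) := by rw [h1]
      _ = ∑ k, eps * u j * a * (v k * eps * u k) * (b * (v j * eps)) := by
          rw [Finset.mul_sum, Finset.sum_mul]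
      _ = _ := by
          refine Finset.sum_congr rfl fun k _ => ?_
          have : eps * (u j * a * v k) * eps * (eps * (u k * b * v j) * eps)
              = eps * (u j * a * v k) * (eps * eps) * ((u k * b * v j) * eps) := by
            simp only [mul_assoc]
          rw [this, heps]; simp only [mul_assoc]
  refine ⟨s, ?_, ?_, hs⟩
  · intro a b
    rw [hs, hs]
    simp only [key, map_sum]
    rw [Finset.sum_comm]
    refine Finset.sum_congr rfl fun k _ => Finset.sum_congr rfl fun j _ => ?_
    exact hg _ _
  · intro x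
    rw [hs]
    have e1 : ∀ j, g (eps * u j * (eps * x * eps) * (v j * eps))
        = g (eps * x * eps * (v j * eps * u j) * eps) := by
      intro j
      have a1 : eps * u j * (eps * x * eps) * (v j * eps)
          = (eps * u j * eps) * (eps * (x * eps * v j) * eps) := by
        have : (eps * u j * eps) * (eps * (x * eps * v j) * eps)
            = eps * u j * (eps * eps) * ((x * eps * v j) * eps) := by simp only [mul_assoc]
        rw [this, heps]; simp only [mul_assoc]
      have a2 : eps * x * eps * (v j * eps * u j) * eps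
          = (eps * (x * eps * v j) * eps) * (eps * u j * eps) := by
        have : (eps * (x * eps * v j) * eps) * (eps * u j * eps)
            = eps * (x * eps * v j) * (eps * eps) * (u j * eps) := by simp only [mul_assoc]
        rw [this, heps]; simp only [mul_assoc]
      rw [a1, a2]; exact hg _ _
    simp only [e1]
    rw [← map_sum, ← Finset.sum_mul, ← Finset.mul_sum, h1, mul_one, mul_assoc, heps]

theorem sum_single_diag {n : ℕ} :
    ∑ j : Fin n, Matrix.single j j (1 : F) = (1 : Matrix (Fin n) (Fin n) F) := by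
  ext a b
  rw [Matrix.sum_apply]
  simp only [Matrix.single_apply, Matrix.one_apply]
  by_cases hab : a = b
  · subst hab
    simp
  · simp only [hab, if_false]
    refine Finset.sum_eq_zero fun j _ => ?_
    rw [if_neg]
    rintro ⟨rfl, rfl⟩
    exact hab rfl

theorem three_dep {V : Type*} [AddCommGroup V] [Module F V] [FiniteDimensional F V]
    (h : finrank F V ≤ 2) (a b c : V) :
    ∃ x y z : F, x • a + y • b + z • c = 0 ∧ ¬ (x = 0 ∧ y = 0 ∧ z = 0) := by
  have hnli : ¬ LinearIndependent F ![a, b, c] := by
    intro hli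
    have := hli.fintype_card_le_finrank
    simp only [Fintype.card_fin] at this
    omega
  obtain ⟨k, hk, i, hi⟩ := Fintype.not_linearIndependent_iff.1 hnli
  rw [Fin.sum_univ_three] at hk
  refine ⟨k 0, k 1, k 2, by simpa using hk, ?_⟩
  rintro ⟨h0, h1, h2⟩
  fin_cases i
  · exact hi h0
  · exact hi h1
  · exact hi h2

theorem P3 [FiniteDimensional F A] {lam : A →ₗ[F] F} (h : IsSymForm lam)
    (hT : finrank F (traceForms F A) ≤ 2) {n : ℕ} (hn : 0 < n)
    (φ : A →ₐ[F] Matrix (Fin n) (Fin n) F) (hφ : Function.Surjective φ)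
    (hJ : ∀ x, φ x = 0 ↔ x ∈ Ring.jacobson A) :
    ∀ x y, φ x = 0 → φ y = 0 → x * y = 0 := by
  classical
  have : IsArtinianRing A := IsArtinianRing.of_finite F A
  have : IsNoetherianRing A := IsNoetherianRing.of_finite F A
  let J2 : Submodule F A := Submodule.span F {z | ∃ x y, φ x = 0 ∧ φ y = 0 ∧ z = x * y}
  have hJ2mem : ∀ x y, φ x = 0 → φ y = 0 → x * y ∈ J2 :=
    fun x y hx hy => Submodule.subset_span ⟨x, y, hx, hy, rfl⟩
  have hJ2ideal : ∀ a b z, z ∈ J2 → a * z * b ∈ J2 := by
    intro a b z hz
    induction hz using Submodule.span_induction with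
    | mem z hz =>
      obtain ⟨x, y, hx, hy, rfl⟩ := hz
      have : a * (x * y) * b = (a * x) * (y * b) := by simp only [mul_assoc]
      rw [this]
      exact hJ2mem _ _ (by rw [map_mul, hx, mul_zero]) (by rw [map_mul, hy, zero_mul])
    | zero => simp
    | add z w _ _ hz hw => rw [mul_add, add_mul]; exact J2.add_mem hz hw
    | smul c z _ hz => rw [mul_smul_comm, smul_mul_assoc]; exact J2.smul_mem c hz
  have hJ2ker : ∀ z ∈ J2, φ z = 0 := by
    intro z hz
    induction hz using Submodule.span_induction with
    | mem z hz =>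
      obtain ⟨x, y, hx, hy, rfl⟩ := hz
      rw [map_mul, hx, zero_mul]
    | zero => simp
    | add z w _ _ hz hw => rw [map_add, hz, hw, add_zero]
    | smul c z _ hz => rw [map_smul, hz, smul_zero]
  suffices hlam : ∀ z ∈ J2, lam z = 0 by
    intro x y hx hy
    apply h.nondeg
    intro b
    rw [mul_assoc]
    exact hlam _ (hJ2mem _ _ hx (by rw [map_mul, hy, zero_mul]))
  by_cases hJ0 : ∀ x, φ x = 0 → x ∈ J2
  · have hsub : ∀ z ∈ J2, z ∈ Ring.jacobson A • (Ring.jacobson A : Submodule A A) := by
      intro z hz
      induction hz using Submodule.span_induction with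
      | mem z hz =>
        obtain ⟨x, y, hx, hy, rfl⟩ := hz
        exact Submodule.smul_mem_smul ((hJ x).1 hx) ((hJ y).1 hy)
      | zero => exact Submodule.zero_mem _
      | add z w _ _ hz hw => exact Submodule.add_mem _ hz hw
      | smul c z _ hz =>
        rw [← algebraMap_smul A c z]
        exact Submodule.smul_mem _ _ hz
    have hle : (Ring.jacobson A : Submodule A A)
        ≤ Ring.jacobson A • (Ring.jacobson A : Submodule A A) :=
      fun x hx => hsub x (hJ0 x ((hJ x).2 hx))
    have hbot := Submodule.FG.eq_bot_of_le_jacobson_smul (IsNoetherian.noetherian _) hle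
    intro z hz
    have hz0 : z ∈ (Ring.jacobson A : Submodule A A) := (hJ z).1 (hJ2ker z hz)
    rw [hbot, Submodule.mem_bot] at hz0
    rw [hz0, map_zero]
  · push Not at hJ0
    obtain ⟨y0, hy0, hy0J2⟩ := hJ0
    have hnil : ∀ x ∈ RingHom.ker (φ : A →+* Matrix (Fin n) (Fin n) F), IsNilpotent x := by
      intro x hx
      obtain ⟨k, hk⟩ := IsSemiprimaryRing.isNilpotent (R := A)
      refine ⟨k, ?_⟩
      have := Ideal.pow_mem_pow ((hJ x).1 hx) k
      rw [hk] at this
      exact this
    let i0 : Fin n := ⟨0, hn⟩
    obtain ⟨eps, heps, hφeps⟩ := exists_isIdempotentElem_eq_of_ker_isNilpotent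
      (φ : A →+* Matrix (Fin n) (Fin n) F) hnil (Matrix.single i0 i0 1)
      (by obtain ⟨a, ha⟩ := hφ (Matrix.single i0 i0 1); exact ⟨a, ha⟩)
      (by unfold IsIdempotentElem; simp)
    have hφeps' : φ eps = Matrix.single i0 i0 1 := hφeps
    have heps' : eps * eps = eps := heps
    choose u hu using fun j => hφ (Matrix.single i0 j 1)
    choose v' hv' using fun j => hφ (Matrix.single j i0 1)
    let w := ∑ j, v' j * eps * u j
    have hw : φ w = 1 := by
      simp only [w, map_sum, map_mul, hu, hv', hφeps', Matrix.single_mul_single_same, mul_one]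
      exact sum_single_diag
    have hwu : IsUnit w := by
      have h1 : IsNilpotent (w - 1) := hnil _ (by
        rw [RingHom.mem_ker]
        change φ (w - 1) = 0
        rw [map_sub, hw, map_one, sub_self])
      have := h1.isUnit_add_one
      simpa using this
    obtain ⟨W, hW⟩ := hwu
    let v := fun j => (↑W⁻¹ : A) * v' j
    have h1 : ∑ j, v j * eps * u j = 1 := by
      have : ∑ j, v j * eps * u j = (↑W⁻¹ : A) * w := by
        simp only [v, w, Finset.mul_sum, mul_assoc]
      rw [this, ← hW, Units.inv_mul]
    -- some element of `eps J eps` is outside `J2`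
    have hex : ∃ y, φ y = 0 ∧ eps * y * eps ∉ J2 := by
      by_contra hcon
      push Not at hcon
      apply hy0J2
      have e : y0 = ∑ j, ∑ k, v j * (eps * (u j * y0 * v k) * eps) * u k := by
        calc y0 = 1 * y0 * 1 := by rw [one_mul, mul_one]
          _ = (∑ j, v j * eps * u j) * y0 * (∑ k, v k * eps * u k) := by rw [h1]
          _ = _ := by
            rw [Finset.sum_mul, Finset.sum_mul]
            refine Finset.sum_congr rfl fun j _ => ?_
            rw [Finset.mul_sum]
            refine Finset.sum_congr rfl fun k _ => ?_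
            simp only [mul_assoc]
      rw [e]
      refine J2.sum_mem fun j _ => J2.sum_mem fun k _ => ?_
      apply hJ2ideal
      apply hcon
      rw [map_mul, map_mul, hy0, mul_zero, zero_mul]
    obtain ⟨y, hy, hyJ2⟩ := hex
    obtain ⟨g, hgy, hgJ2⟩ := Submodule.exists_le_ker_of_notMem hyJ2
    have hgJ2' : ∀ z ∈ J2, g z = 0 := fun z hz => hgJ2 hz
    have hcorner : ∀ X, φ (eps * X * eps - (φ X i0 i0) • eps) = 0 := by
      intro X
      rw [map_sub, map_mul, map_mul, map_smul, hφeps', Matrix.single_mul_mul_single,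
        Matrix.smul_single]
      simp
    have hg : ∀ X Y, g ((eps * X * eps) * (eps * Y * eps))
        = g ((eps * Y * eps) * (eps * X * eps)) := by
      intro X Y
      have hP1 : eps * (eps * X * eps) = eps * X * eps := by
        rw [← mul_assoc, ← mul_assoc, heps']
      have hP2 : (eps * X * eps) * eps = eps * X * eps := by
        rw [mul_assoc, heps']
      have hQ1 : eps * (eps * Y * eps) = eps * Y * eps := by
        rw [← mul_assoc, ← mul_assoc, heps']
      have hQ2 : (eps * Y * eps) * eps = eps * Y * eps := by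
        rw [mul_assoc, heps']
      have hX := hcorner X
      have hY := hcorner Y
      have e : (eps * X * eps) * (eps * Y * eps) - (eps * Y * eps) * (eps * X * eps)
          = (eps * X * eps - (φ X i0 i0) • eps) * (eps * Y * eps - (φ Y i0 i0) • eps)
            - (eps * Y * eps - (φ Y i0 i0) • eps) * (eps * X * eps - (φ X i0 i0) • eps) := by
        generalize φ X i0 i0 = c
        generalize φ Y i0 i0 = c'
        simp only [sub_mul, mul_sub, smul_mul_assoc, mul_smul_comm, hP1, hP2, hQ1, hQ2, heps',
          smul_sub]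
        rw [smul_comm c c' eps]
        abel
      have e2 : g ((eps * X * eps) * (eps * Y * eps) - (eps * Y * eps) * (eps * X * eps)) = 0 := by
        rw [e, map_sub, hgJ2' _ (hJ2mem _ _ hX hY), hgJ2' _ (hJ2mem _ _ hY hX), sub_zero]
      rw [map_sub] at e2
      exact sub_eq_zero.1 e2
    obtain ⟨s, hs1, hs2, hs3⟩ := morita_trace eps heps' u v h1 g hg
    have hsJ2 : ∀ z ∈ J2, s z = 0 := by
      intro z hz
      rw [hs3]
      exact Finset.sum_eq_zero fun j _ => hgJ2' _ (hJ2ideal _ _ _ hz)
    let t : A →ₗ[F] F := Matrix.traceLinearMap (Fin n) F F ∘ₗ φ.toLinearMap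
    have ht : ∀ a, t a = Matrix.trace (φ a) := fun a => rfl
    have ht1 : ∀ a b, t (a * b) = t (b * a) := by
      intro a b
      rw [ht, ht, map_mul, map_mul, Matrix.trace_mul_comm]
    have htJ : ∀ a, φ a = 0 → t a = 0 := by
      intro a ha
      rw [ht, ha, Matrix.trace_zero]
    have hteps : t eps = 1 := by
      rw [ht, hφeps', Matrix.trace_single_eq_same]
    obtain ⟨c0, c1, c2, hc, hc0⟩ := three_dep hT (⟨t, ht1⟩ : traceForms F A) ⟨s, hs1⟩
      ⟨lam, h.symm⟩
    have hrel : ∀ a, c0 * t a + c1 * s a + c2 * lam a = 0 := by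
      intro a
      have := congrArg (fun f : traceForms F A => (f : Module.Dual F A) a) hc
      simpa using this
    have hy1 : φ (eps * y * eps) = 0 := by rw [map_mul, map_mul, hy, mul_zero, zero_mul]
    by_cases hc2 : c2 = 0
    · exfalso
      have r1 := hrel (eps * y * eps)
      rw [htJ _ hy1, hs2, hc2, mul_zero, zero_mul, zero_add, add_zero] at r1
      have hc1 : c1 = 0 := (mul_eq_zero.1 r1).resolve_right hgy
      have r2 := hrel eps
      rw [hteps, hc1, hc2, mul_one, zero_mul, zero_mul, add_zero, add_zero] at r2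
      exact hc0 ⟨r2, hc1, hc2⟩
    · intro z hz
      have r := hrel z
      rw [htJ _ (hJ2ker z hz), hsJ2 z hz, mul_zero, mul_zero, zero_add, zero_add] at r
      exact (mul_eq_zero.1 r).resolve_left hc2

end Cfsg.Agent.Lib.Helper96.SymAlgP3
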