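import Mathlib
import Cfsg.Prelude.Def_Solvable
import Cfsg.Agent.Lib.Helper91.Subnormal
import Cfsg.Agent.Lib.Helper96.Zipper

/-!
# Baer's theorem: left Engel elements of a finite group lie in the Fitting subgroup
-/

set_option autoImplicit false

namespace Cfsg.Agent.Lib.Helper96

open Subgroup

open scoped Pointwise

universe u

/-- The iterated commutator `[x, g, …, g]` (`n` copies of `g`). -/
def engel {G : Type*} [Group G] (g x : G) : ℕ → G
  | 0 => x
  | n + 1 => engel g x n * g * (engel g x n)⁻¹ * g⁻¹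

theorem foldl_replicate_eq_engel {G : Type*} [Group G] (g x : G) (n : ℕ) :
    (List.replicate n g).foldl (fun a b => a * b * a⁻¹ * b⁻¹) x = engel g x n := by
  induction n with
  | zero => rfl
  | succ n ih =>
    rw [List.replicate_succ', List.foldl_append, ih]
    rfl

theorem coe_engel {G : Type*} [Group G] {H : Subgroup G} (g x : H) (n : ℕ) :
    ((engel g x n : H) : G) = engel (g : G) (x : G) n := by
  induction n with
  | zero => rfl
  | succ n ih => simp [engel, ih]

theorem isNilpotent_of_isMulCommutative {G : Type*} [Group G] [h : IsMulCommutative G] :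
    Group.IsNilpotent G :=
  Subgroup.nilpotent_iff_lowerCentralSeries.mpr ⟨1, Subgroup.lowerCentralSeries_one_eq_bot_iff.mpr h⟩

theorem isCoatom_conj_smul {G : Type*} [Group G] {M : Subgroup G} (hM : IsCoatom M) (a : G) :
    IsCoatom (MulAut.conj a • M) :=
  ((MulAut.conj a).mapSubgroup.isCoatom_iff M).mpr hM

theorem inFit_of_engel_aux : ∀ (n : ℕ) (G : Type u) [Group G] [Finite G], Nat.card G = n →
    ∀ g : G, (∀ x, ∃ k, engel g x k = 1) → InFit (zpowers g) ⊤ := by
  intro n
  induction n using Nat.strong_induction_on with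
  | _ n ih =>
  intro G _ _ hn g h
  by_contra hS
  have hyp : ∀ H : Subgroup G, zpowers g ≤ H → H ≠ ⊤ → InFit (zpowers g) H := by
    intro H hSH hH
    have hgH : g ∈ H := hSH (mem_zpowers g)
    have hcard : Nat.card H < n := by
      rw [← hn]
      by_contra hcon
      exact hH (Subgroup.eq_top_of_card_eq H (le_antisymm (Subgroup.card_le_card_group H)
        (not_lt.mp hcon)))
    obtain ⟨N', a1, -, a3, a4⟩ := ih (Nat.card H) hcard H rfl ⟨g, hgH⟩ (fun x => by
      obtain ⟨k, hk⟩ := h x
      exact ⟨k, Subtype.ext (by rw [coe_engel]; exact hk)⟩)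
    refine ⟨N'.map H.subtype, ?_, map_subtype_le _, ?_,
      Cfsg.Agent.Lib.Helper91.isNilpotent_map _ a4⟩
    · rw [zpowers_le]
      exact ⟨⟨g, hgH⟩, a1 (mem_zpowers _), rfl⟩
    · rw [le_normalizer_iff] at a3 ⊢
      rintro y hy _ ⟨z, hz, rfl⟩
      exact ⟨⟨y, hy⟩ * z * ⟨y, hy⟩⁻¹, a3 ⟨y, hy⟩ (mem_top _) z hz, rfl⟩
  have hStop : zpowers g ≠ ⊤ := by
    intro htop
    apply hS
    refine ⟨zpowers g, le_rfl, le_top, ?_, isNilpotent_of_isMulCommutative⟩
    rw [htop]
    exact le_normalizer
  obtain ⟨M, hM, hSM⟩ := (eq_top_or_exists_le_coatom (zpowers g)).resolve_left hStop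
  have hgM : g ∈ M := hSM (mem_zpowers g)
  have huniq : ∀ K : Subgroup G, IsCoatom K → zpowers g ≤ K → K = M := fun K hK hSK =>
    zipper (zpowers g) hyp hS K M hK hM hSK hSM
  rcases hM.le_iff.mp (le_normalizer (H := M)) with hnor | hnor
  · -- `M` is normal
    obtain ⟨N, b1, b2, b3, b4⟩ := hyp M hSM hM.1
    have hMn : M.Normal := normalizer_eq_top_iff.mp hnor
    have hsub : N.IsSubnormal := IsSubnormal.step N M b2 hMn.isSubnormal
      ((normal_subgroupOf_iff_le_normalizer b2).mpr b3)
    exact hS (inFit_top_iff.mpr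
      (b1.trans (Cfsg.Agent.Lib.Helper91.le_fittingSubgroup_of_isSubnormal hsub b4)))
  · have key : ∀ y : G, y * g * y⁻¹ * g⁻¹ ∈ M → y ∈ M := by
      intro y hy
      have h1 : y * g * y⁻¹ ∈ M := by
        have := M.mul_mem hy hgM
        simpa using this
      have h2 : zpowers g ≤ MulAut.conj y⁻¹ • M := by
        rw [zpowers_le, mem_pointwise_smul_iff_inv_smul_mem, map_inv, inv_inv, MulAut.smul_def,
          MulAut.conj_apply]
        exact h1
      have h3 := huniq _ (isCoatom_conj_smul hM y⁻¹) h2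
      have h4 : y⁻¹ ∈ normalizer (M : Set G) := mem_normalizer_of_conj_smul_eq h3
      rw [hnor] at h4
      simpa using M.inv_mem h4
    have hall : ∀ (k : ℕ) (x : G), engel g x k ∈ M → x ∈ M := by
      intro k
      induction k with
      | zero => intro x hx; exact hx
      | succ k ihk => intro x hx; exact ihk x (key _ hx)
    apply hM.1
    rw [eq_top_iff]
    intro x _
    obtain ⟨k, hk⟩ := h x
    exact hall k x (hk ▸ M.one_mem)

/-- **Baer**: a left Engel element of a finite group lies in the Fitting subgroup. -/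
theorem mem_fittingSubgroup_of_engel {G : Type*} [Group G] [Finite G] (g : G)
    (h : ∀ x, ∃ k, engel g x k = 1) : g ∈ Cfsg.fittingSubgroup G :=
  inFit_top_iff.mp (inFit_of_engel_aux _ G rfl g h) (mem_zpowers g)

/-- Elements of a nilpotent normal subgroup are left Engel elements. -/
theorem engel_of_mem_normal_nilpotent {G : Type*} [Group G] (F : Subgroup G) [F.Normal]
    (hF : Group.IsNilpotent F) {g : G} (hg : g ∈ F) (x : G) : ∃ k, engel g x k = 1 := by
  obtain ⟨c, hc⟩ := (isNilpotent_iff_lowerCentralSeries F).mp hF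
  have hmem : ∀ k, engel g x (k + 1) ∈ F.lowerCentralSeries k := by
    intro k
    induction k with
    | zero =>
      show x * g * x⁻¹ * g⁻¹ ∈ F
      exact F.mul_mem (‹F.Normal›.conj_mem g hg x) (F.inv_mem hg)
    | succ k ihk =>
      rw [Subgroup.lowerCentralSeries_succ]
      exact commutator_mem_commutator ihk hg
  refine ⟨c + 1, ?_⟩
  have := hmem c
  rwa [hc, mem_bot] at this

end Cfsg.Agent.Lib.Helper96
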