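import Mathlib
import Cfsg.Prelude.Def_Solvable
import Cfsg.Agent.Lib.Helper91.Subnormal
import Cfsg.Agent.Lib.Helper96.BaerSuzuki

/-!
# Baer: the hypercenter is the set of `g` with `⟨x, g⟩` nilpotent for all `x`
-/

set_option autoImplicit false

namespace Cfsg.Agent.Lib.Helper96

open Subgroup

open scoped Pointwise commutatorElement

universe u

section lemmas

variable {G : Type*} [Group G]

/-- Two `p`-subgroups of a finite nilpotent subgroup generate a `p`-group. -/
theorem isPGroup_sup_of_le_nilpotent [Finite G] {p : ℕ} [Fact p.Prime] {L A B : Subgroup G}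
    (hL : Group.IsNilpotent L) (hAL : A ≤ L) (hBL : B ≤ L) (hA : IsPGroup p A)
    (hB : IsPGroup p B) : IsPGroup p ↥(A ⊔ B) := by
  obtain ⟨P, hP⟩ := (hA.comap_subtype (K := L)).exists_le_sylow
  obtain ⟨Q, hQ⟩ := (hB.comap_subtype (K := L)).exists_le_sylow
  have hPn : (P : Subgroup L).Normal := inferInstance
  have := Sylow.unique_of_normal P hPn
  have hPQ : Q = P := Subsingleton.elim _ _
  rw [hPQ] at hQ
  have h1 : IsPGroup p ↥((A ⊔ B).subgroupOf L) := by
    rw [Subgroup.subgroupOf_sup hAL hBL]
    exact P.isPGroup'.to_le (sup_le hP hQ)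
  exact h1.of_equiv (Subgroup.subgroupOfEquivOfLe (sup_le hAL hBL))

/-- In a finite nilpotent subgroup, a `p`-element and a `q`-element commute (`p ≠ q`). -/
theorem commute_of_mem_nilpotent [Finite G] {p q : ℕ} [Fact p.Prime] [Fact q.Prime] (hpq : p ≠ q)
    {L : Subgroup G} (hL : Group.IsNilpotent L) {a b : G} (ha : a ∈ L) (hb : b ∈ L)
    (hap : IsPGroup p (zpowers a)) (hbq : IsPGroup q (zpowers b)) : Commute a b := by
  have hap' : IsPGroup p (zpowers (⟨a, ha⟩ : L)) := by
    have : (zpowers (⟨a, ha⟩ : L)).map L.subtype = zpowers a := by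
      rw [MonoidHom.map_zpowers]; rfl
    have h2 : IsPGroup p ((zpowers (⟨a, ha⟩ : L)).map L.subtype) := by rwa [this]
    exact h2.of_equiv ((zpowers (⟨a, ha⟩ : L)).equivMapOfInjective L.subtype
      L.subtype_injective).symm
  have hbq' : IsPGroup q (zpowers (⟨b, hb⟩ : L)) := by
    have : (zpowers (⟨b, hb⟩ : L)).map L.subtype = zpowers b := by
      rw [MonoidHom.map_zpowers]; rfl
    have h2 : IsPGroup q ((zpowers (⟨b, hb⟩ : L)).map L.subtype) := by rwa [this]
    exact h2.of_equiv ((zpowers (⟨b, hb⟩ : L)).equivMapOfInjective L.subtype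
      L.subtype_injective).symm
  obtain ⟨P, hP⟩ := hap'.exists_le_sylow
  obtain ⟨Q, hQ⟩ := hbq'.exists_le_sylow
  have hc := Subgroup.commute_of_normal_of_disjoint (P : Subgroup L) (Q : Subgroup L) inferInstance
    inferInstance (IsPGroup.disjoint_of_ne p q hpq _ _ P.isPGroup' Q.isPGroup') ⟨a, ha⟩ ⟨b, hb⟩
    (hP (mem_zpowers _)) (hQ (mem_zpowers _))
  exact congrArg Subtype.val hc

/-- A nontrivial normal subgroup of a nilpotent group meets the center nontrivially. -/
theorem exists_mem_center_of_normal [hG : Group.IsNilpotent G] (N : Subgroup G) [hN : N.Normal]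
    (hne : N ≠ ⊥) : ∃ z ∈ N, z ≠ 1 ∧ z ∈ center G := by
  classical
  obtain ⟨n, hn⟩ := hG.nilpotent'
  have hex : ∃ n, N ⊓ Subgroup.upperCentralSeries G n ≠ ⊥ := ⟨n, by rwa [hn, inf_top_eq]⟩
  have hspec := Nat.find_spec hex
  have hmin := fun m => Nat.find_min hex (m := m)
  set k := Nat.find hex with hk
  cases hk' : k with
  | zero =>
    rw [hk'] at hspec
    simp at hspec
  | succ m =>
    rw [hk'] at hspec
    have hm : N ⊓ Subgroup.upperCentralSeries G m = ⊥ := by
      have := hmin m (by omega)
      simpa using this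
    obtain ⟨⟨z, hzN, hzZ⟩, hz1⟩ : ∃ z : ↥(N ⊓ Subgroup.upperCentralSeries G (m + 1)), z ≠ 1 :=
      Subgroup.ne_bot_iff_exists_ne_one.mp hspec
    refine ⟨z, hzN, fun h => hz1 (Subtype.ext h), ?_⟩
    rw [mem_center_iff]
    intro y
    have h1 : ⁅z, y⁆ ∈ Subgroup.upperCentralSeries G m := Subgroup.mem_upperCentralSeries_succ_iff.mp hzZ y
    have h2 : ⁅z, y⁆ ∈ N := by
      rw [commutatorElement_def, mul_assoc, mul_assoc]
      refine N.mul_mem hzN ?_
      rw [← mul_assoc]
      exact hN.conj_mem _ (N.inv_mem hzN) y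
    have h3 : ⁅z, y⁆ ∈ N ⊓ Subgroup.upperCentralSeries G m := ⟨h2, h1⟩
    rw [hm, mem_bot, commutatorElement_eq_one_iff_mul_comm] at h3
    exact h3.symm

theorem commutator_upperCentralSeries_succ_le (m : ℕ) (A : Subgroup G) :
    ⁅Subgroup.upperCentralSeries G (m + 1), A⁆ ≤ Subgroup.upperCentralSeries G m := by
  rw [Subgroup.commutator_le]
  intro a ha b _
  exact Subgroup.mem_upperCentralSeries_succ_iff.mp ha b

/-- `⟨x⟩ Z_n(G)` is nilpotent. -/
theorem isNilpotent_zpowers_sup_upperCentralSeries (x : G) (n : ℕ) :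
    Group.IsNilpotent ↥(zpowers x ⊔ Subgroup.upperCentralSeries G n) := by
  set A := zpowers x ⊔ Subgroup.upperCentralSeries G n with hA
  have h1 : ⁅A, A⁆ ≤ Subgroup.upperCentralSeries G n := by
    apply Cfsg.Agent.Lib.Helper91.sup_commutator_le
    · apply Cfsg.Agent.Lib.Helper91.commutator_sup_le
      · rw [Subgroup.commutator_le]
        intro a ha b hb
        have : ⁅a, b⁆ = 1 := by
          rw [commutatorElement_eq_one_iff_mul_comm]
          obtain ⟨i, rfl⟩ := mem_zpowers_iff.mp ha
          obtain ⟨j, rfl⟩ := mem_zpowers_iff.mp hb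
          rw [← zpow_add, ← zpow_add, add_comm]
        rw [this]
        exact one_mem _
      · exact Subgroup.commutator_le_right _ _
    · exact Subgroup.commutator_le_left _ _
  have h2 : ∀ k, k ≤ n → A.lowerCentralSeries (k + 1) ≤ Subgroup.upperCentralSeries G (n - k) := by
    intro k
    induction k with
    | zero => intro _; exact h1
    | succ k ih =>
      intro hk
      rw [Subgroup.lowerCentralSeries_succ]
      refine (Subgroup.commutator_mono (ih (by omega)) le_rfl).trans ?_
      have : n - k = (n - (k + 1)) + 1 := by omega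
      rw [this]
      exact commutator_upperCentralSeries_succ_le _ _
  refine (isNilpotent_iff_lowerCentralSeries A).mpr ⟨n + 1, ?_⟩
  have := h2 n le_rfl
  simpa using this

end lemmas

theorem mem_hypercenter_aux : ∀ (n : ℕ) (G : Type u) [Group G] [Finite G], Nat.card G = n →
    ∀ g : G, (∀ x, Group.IsNilpotent ↥(closure ({x, g} : Set G))) →
      ∃ k, g ∈ Subgroup.upperCentralSeries G k := by
  intro n
  induction n using Nat.strong_induction_on with
  | _ n ih =>
  intro G _ _ hn g h
  by_cases hZ : center G = ⊥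
  · refine ⟨0, ?_⟩
    rw [Subgroup.upperCentralSeries_zero, mem_bot]
    by_contra hg1
    have hord : orderOf g ≠ 1 := by rwa [Ne, orderOf_eq_one_iff]
    obtain ⟨p, hp, hpd⟩ := Nat.exists_prime_and_dvd hord
    have := Fact.mk hp
    set g' := g ^ (orderOf g / p) with hg'
    have hg'ord : orderOf g' = p := orderOf_pow_orderOf_div (orderOf_pos g).ne' hpd
    have hg'1 : g' ≠ 1 := by
      intro h1
      rw [h1, orderOf_one] at hg'ord
      exact hp.one_lt.ne hg'ord
    have h' : ∀ x, Group.IsNilpotent ↥(closure ({x, g'} : Set G)) := fun x => by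
      refine Cfsg.Agent.Lib.Helper91.isNilpotent_of_le ?_ (h x)
      rw [closure_le]
      rintro w (rfl | rfl)
      · exact subset_closure (by simp)
      · exact pow_mem (subset_closure (by simp)) _
    have hconj : ∀ c x, Group.IsNilpotent ↥(closure ({x, c * g' * c⁻¹} : Set G)) := by
      intro c x
      have h1 := Cfsg.Agent.Lib.Helper91.isNilpotent_map (MulAut.conj c).toMonoidHom
        (h' (c⁻¹ * x * c))
      rw [MonoidHom.map_closure] at h1
      have h2 : ((MulAut.conj c).toMonoidHom : G → G) '' ({c⁻¹ * x * c, g'} : Set G) =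
          {x, c * g' * c⁻¹} := by
        rw [Set.image_pair]
        congr 1
        simp only [MulEquiv.coe_toMonoidHom, MulAut.conj_apply]
        group
      rwa [h2] at h1
    set X := zpowers g' with hX
    have hXp : IsPGroup p X := IsPGroup.of_card (n := 1) (by rw [Nat.card_zpowers, hg'ord, pow_one])
    have hBS : ∀ y : G, IsPGroup p ↥(X ⊔ MulAut.conj y • X) := by
      intro y
      have hXL : X ≤ closure ({y, g'} : Set G) := zpowers_le.mpr (subset_closure (by simp))
      refine isPGroup_sup_of_le_nilpotent (h' y) hXL ?_ hXp (hXp.map _)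
      rintro _ ⟨w, hw, rfl⟩
      have hy : y ∈ closure ({y, g'} : Set G) := subset_closure (by simp)
      exact mul_mem (mul_mem hy (hXL hw)) (inv_mem hy)
    have hNp := baerSuzuki_normalClosure X hBS
    obtain ⟨P⟩ : Nonempty (Sylow p G) := inferInstance
    have hNP : normalClosure (X : Set G) ≤ (P : Subgroup G) := by
      rw [Subgroup.normalClosure, Subgroup.closure_le]
      intro y hy
      rw [Group.mem_conjugatesOfSet_iff] at hy
      obtain ⟨x, hx, hxy⟩ := hy
      rw [isConj_iff] at hxy
      obtain ⟨c, rfl⟩ := hxy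
      exact baerSuzuki_le_sylow X hBS P c (Subgroup.smul_mem_pointwise_smul x (MulAut.conj c) X hx)
    have hg'N : g' ∈ normalClosure (X : Set G) := le_normalClosure (mem_zpowers g')
    have hPnil : Group.IsNilpotent P := P.isPGroup'.isNilpotent
    have hN'ne : (normalClosure (X : Set G)).subgroupOf P ≠ ⊥ := by
      intro hbot
      have : (⟨g', hNP hg'N⟩ : P) ∈ (normalClosure (X : Set G)).subgroupOf P := hg'N
      rw [hbot, mem_bot] at this
      exact hg'1 (congrArg Subtype.val this)
    obtain ⟨⟨z, hzP⟩, hzN, hz1, hzc⟩ :=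
      exists_mem_center_of_normal ((normalClosure (X : Set G)).subgroupOf P) hN'ne
    have hzN' : z ∈ normalClosure (X : Set G) := hzN
    have hz1' : z ≠ 1 := fun h1 => hz1 (Subtype.ext h1)
    have hzP' : ∀ y ∈ (P : Subgroup G), y * z = z * y := by
      intro y hy
      have := (mem_center_iff.mp hzc) ⟨y, hy⟩
      exact congrArg Subtype.val this
    have hq : ∀ (q : ℕ) [Fact q.Prime], q ≠ p → ∀ Q : Sylow q G, ∀ y ∈ (Q : Subgroup G),
        y * z = z * y := by
      intro q _ hqp Q y hy
      have hle : normalClosure (X : Set G) ≤ centralizer ({y} : Set G) := by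
        rw [Subgroup.normalClosure, Subgroup.closure_le]
        intro w hw
        rw [Group.mem_conjugatesOfSet_iff] at hw
        obtain ⟨x, hx, hxw⟩ := hw
        rw [isConj_iff] at hxw
        obtain ⟨c, rfl⟩ := hxw
        obtain ⟨i, rfl⟩ := mem_zpowers_iff.mp hx
        have hc : Commute (c * g' * c⁻¹) y := by
          refine commute_of_mem_nilpotent hqp.symm (hconj c y) (subset_closure (by simp))
            (subset_closure (by simp)) ?_ (Q.isPGroup'.to_le (zpowers_le.mpr hy))
          refine IsPGroup.of_card (n := 1) ?_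
          rw [Nat.card_zpowers, pow_one, ← hg'ord]
          exact (MulAut.conj c).orderOf_eq g'
        rw [SetLike.mem_coe, mem_centralizer_singleton_iff, ← conj_zpow]
        exact (hc.zpow_left i).eq
      have := hle hzN'
      rw [mem_centralizer_singleton_iff] at this
      exact this.symm
    have hidx : (centralizer ({z} : Set G)).index = 1 := by
      by_contra hne
      obtain ⟨r, hr, hrd⟩ := Nat.exists_prime_and_dvd hne
      have := Fact.mk hr
      obtain ⟨R⟩ : Nonempty (Sylow r G) := inferInstance
      have hRC : (R : Subgroup G) ≤ centralizer ({z} : Set G) ∨ r = p := by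
        by_cases hrp : r = p
        · exact Or.inr hrp
        · left
          intro y hy
          rw [mem_centralizer_singleton_iff]
          exact hq r hrp R y hy
      rcases hRC with hRC | rfl
      · exact R.not_dvd_index (hrd.trans (Subgroup.index_dvd_of_le hRC))
      · have hPC : (P : Subgroup G) ≤ centralizer ({z} : Set G) := by
          intro y hy
          rw [mem_centralizer_singleton_iff]
          exact hzP' y hy
        exact P.not_dvd_index (hrd.trans (Subgroup.index_dvd_of_le hPC))
    rw [Subgroup.index_eq_one] at hidx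
    have hzcenter : z ∈ center G := by
      rw [mem_center_iff]
      intro y
      have : y ∈ centralizer ({z} : Set G) := by rw [hidx]; trivial
      rw [mem_centralizer_singleton_iff] at this
      exact this
    rw [hZ, mem_bot] at hzcenter
    exact hz1' hzcenter
  · have hcard : Nat.card (G ⧸ center G) < n := by
      rw [← hn, Subgroup.card_eq_card_quotient_mul_card_subgroup (center G)]
      have h1 : 1 < Nat.card (center G) := (Subgroup.one_lt_card_iff_ne_bot _).mpr hZ
      have h2 : 0 < Nat.card (G ⧸ center G) := Nat.card_pos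
      nlinarith
    obtain ⟨k, hk⟩ := ih _ hcard (G ⧸ center G) rfl (QuotientGroup.mk g) (fun xbar => by
      obtain ⟨x, rfl⟩ := QuotientGroup.mk_surjective xbar
      have h1 := Cfsg.Agent.Lib.Helper91.isNilpotent_map (QuotientGroup.mk' (center G)) (h x)
      rw [MonoidHom.map_closure, Set.image_pair] at h1
      exact h1)
    refine ⟨k + 1, ?_⟩
    rw [← Subgroup.comap_upperCentralSeries_quotient_center]
    exact hk

/-- **Baer**: `g` lies in the hypercenter iff `⟨x, g⟩` is nilpotent for all `x`. -/
theorem forall_isNilpotent_closure_pair_iff {G : Type*} [Group G] [Finite G] (g : G) :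
    (∀ x : G, Group.IsNilpotent ↥(closure ({x, g} : Set G))) ↔
      ∃ k, g ∈ Subgroup.upperCentralSeries G k := by
  constructor
  · exact mem_hypercenter_aux _ G rfl g
  · rintro ⟨k, hk⟩ x
    refine Cfsg.Agent.Lib.Helper91.isNilpotent_of_le ?_
      (isNilpotent_zpowers_sup_upperCentralSeries x k)
    rw [closure_le]
    rintro w (rfl | rfl)
    · exact le_sup_left (a := zpowers w) (mem_zpowers w)
    · exact le_sup_right (a := zpowers x) hk

end Cfsg.Agent.Lib.Helper96
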